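import Mathlib

/-!
# Sylow 2-subgroups of alternating and symmetric groups: basic tools

Wrappers for coatoms above a subgroup; the structure `Syl A P` recording what is used of a Sylow
`2`-subgroup of `A ≤ Perm α`; parity and binomial coefficient lemmas.
-/

set_option autoImplicit false
set_option linter.unusedSectionVars false

namespace Cfsg.Agent.Lib.PermSylow.Basic

open Equiv Equiv.Perm MulAction

section wrappers
variable {G K : Type*} [Group G] [Group K] [Finite G]

theorem existsUnique_coatom (ι : G →* K) (hι : Function.Injective ι) (R : Subgroup G)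
    (S : Subgroup K) (hRS : R.map ι ≤ S) (hSne : ¬ ι.range ≤ S)
    (h : ∀ H : Subgroup K, R.map ι ≤ H → H ≤ ι.range → H ≤ S ∨ H = ι.range) :
    ∃! M : Subgroup G, IsCoatom M ∧ R ≤ M := by
  have key : ∀ N : Subgroup G, R ≤ N → N ≤ S.comap ι ∨ N = ⊤ := by
    intro N hN
    rcases h (N.map ι) (Subgroup.map_mono hN) (Subgroup.map_le_range _ _) with h1 | h1
    · left; exact Subgroup.map_le_iff_le_comap.mp h1
    · right
      rw [MonoidHom.range_eq_map] at h1
      exact Subgroup.map_injective hι h1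
  have hne : S.comap ι ≠ ⊤ := by
    intro h1
    apply hSne
    rintro _ ⟨x, rfl⟩
    have : x ∈ S.comap ι := h1 ▸ Subgroup.mem_top x
    exact this
  have hRle : R ≤ S.comap ι := Subgroup.map_le_iff_le_comap.mp hRS
  refine ⟨S.comap ι, ⟨⟨hne, ?_⟩, hRle⟩, ?_⟩
  · intro N hN
    rcases key N (hRle.trans hN.le) with h1 | h1
    · exact absurd h1 (not_le_of_gt hN)
    · exact h1
  · rintro M ⟨hM, hRM⟩
    rcases key M hRM with h1 | h1
    · exact ((hM.le_iff.mp h1).resolve_left hne).symm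
    · exact absurd h1 hM.1

theorem not_existsUnique_coatom (ι : G →* K) (hι : Function.Injective ι) (R : Subgroup G)
    (H₁ H₂ : Subgroup K)
    (h1 : R.map ι ≤ H₁) (h2 : R.map ι ≤ H₂) (h1' : H₁ ≤ ι.range) (h2' : H₂ ≤ ι.range)
    (hne1 : H₁ ≠ ι.range) (hne2 : H₂ ≠ ι.range)
    (h : ∀ M : Subgroup K, H₁ ≤ M → H₂ ≤ M → M ≤ ι.range → M = ι.range) :
    ¬ ∃! M : Subgroup G, IsCoatom M ∧ R ≤ M := by
  rintro ⟨M₀, ⟨hM₀, hRM₀⟩, huniq⟩
  have key : ∀ H : Subgroup K, R.map ι ≤ H → H ≤ ι.range → H ≠ ι.range → H ≤ M₀.map ι := by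
    intro H hH hH' hne
    have hne' : H.comap ι ≠ ⊤ := by
      intro h3
      apply hne
      apply le_antisymm hH'
      rintro _ ⟨x, rfl⟩
      have : x ∈ H.comap ι := h3 ▸ Subgroup.mem_top x
      exact this
    obtain hc | ⟨C, hC, hle⟩ := eq_top_or_exists_le_coatom (H.comap ι)
    · exact absurd hc hne'
    have hRC : R ≤ C := (Subgroup.map_le_iff_le_comap.mp hH).trans hle
    have := huniq C ⟨hC, hRC⟩
    subst this
    intro y hy
    obtain ⟨x, rfl⟩ := hH' hy
    exact ⟨x, hle hy, rfl⟩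
  have := h (M₀.map ι) (key _ h1 h1' hne1) (key _ h2 h2' hne2) (Subgroup.map_le_range _ _)
  rw [MonoidHom.range_eq_map] at this
  exact hM₀.1 (Subgroup.map_injective hι this)

end wrappers

variable {α : Type*} [Fintype α] [DecidableEq α]

/-- What is used of a Sylow `2`-subgroup `P` of a subgroup `A` of `Perm α`. -/
structure Syl (A P : Subgroup (Perm α)) : Prop where
  le : P ≤ A
  pg : IsPGroup 2 P
  conj : ∀ Q : Subgroup (Perm α), Q ≤ A → IsPGroup 2 Q → ∃ a ∈ A, ∀ g ∈ Q, a * g * a⁻¹ ∈ P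
  odd : ∀ H : Subgroup A, P.subgroupOf A ≤ H → Odd H.index

theorem syl_of_sylow {G : Type*} [Group G] [Finite G] (ι : G →* Perm α)
    (hι : Function.Injective ι) (R : Sylow 2 G) :
    Syl ι.range ((R : Subgroup G).map ι) := by
  refine ⟨Subgroup.map_le_range _ _, ?_, ?_, ?_⟩
  · rintro ⟨_, r, hr, rfl⟩
    obtain ⟨k, hk⟩ := R.isPGroup' ⟨r, hr⟩
    refine ⟨k, ?_⟩
    ext1
    have hk' : r ^ 2 ^ k = 1 := by simpa using congrArg Subtype.val hk
    simp [← map_pow, hk']
  · intro Q hQ hpQ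
    have hpQ' : IsPGroup 2 (Q.comap ι) := by
      rintro ⟨g, hg⟩
      obtain ⟨k, hk⟩ := hpQ ⟨ι g, hg⟩
      refine ⟨k, ?_⟩
      ext1
      apply hι
      have hk' : (ι g) ^ 2 ^ k = 1 := by simpa using congrArg Subtype.val hk
      simpa [map_pow] using hk'
    obtain ⟨R', hR'⟩ := hpQ'.exists_le_sylow
    obtain ⟨g, hg⟩ := MulAction.exists_smul_eq G R' R
    refine ⟨ι g, ⟨g, rfl⟩, ?_⟩
    intro x hx
    obtain ⟨q, rfl⟩ := hQ hx
    refine ⟨g * q * g⁻¹, ?_, by simp⟩
    have hq : q ∈ (R' : Subgroup G) := hR' hx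
    rw [← hg, Sylow.coe_subgroup_smul]
    have := Subgroup.smul_mem_pointwise_smul q (MulAut.conj g) (R' : Subgroup G) hq
    rw [MulAut.smul_def, MulAut.conj_apply] at this
    exact this
  · intro H hH
    have hle : (R : Subgroup G) ≤ H.comap ι.rangeRestrict := by
      intro r hr
      apply hH
      exact Subgroup.mem_map_of_mem _ hr
    have h1 : (H.comap ι.rangeRestrict).index = H.index :=
      Subgroup.index_comap_of_surjective _ ι.rangeRestrict_surjective
    rw [← h1, ← Nat.not_even_iff_odd, even_iff_two_dvd]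
    intro h2
    exact R.not_dvd_index (h2.trans (Subgroup.index_dvd_of_le hle))

/-! ### Parity -/

theorem exists_fixed_of_odd {X Q : Type*} [Finite X] [Group Q] [MulAction Q X]
    (hQ : IsPGroup 2 Q) (h : Odd (Nat.card X)) : ∃ x : X, ∀ g : Q, g • x = x := by
  have h1 := hQ.card_modEq_card_fixedPoints X
  have h2 : Nat.card (fixedPoints Q X) ≠ 0 := by
    intro h0
    rw [h0] at h1
    have := (Nat.modEq_zero_iff_dvd.mp h1)
    exact (Nat.not_even_iff_odd.mpr h) (even_iff_two_dvd.mpr this)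
  have : Nonempty (fixedPoints Q X) := by
    by_contra hne
    rw [not_nonempty_iff] at hne
    exact h2 (Nat.card_of_isEmpty)
  obtain ⟨x, hx⟩ := this
  exact ⟨x, fun g => hx g⟩

/-! ### Binomial coefficients -/

theorem two_dvd_choose_pow (k m : ℕ) (h0 : m ≠ 0) (h1 : m ≠ 2 ^ k) : 2 ∣ (2 ^ k).choose m :=
  Nat.prime_two.dvd_choose_pow h0 h1

theorem two_dvd_choose_pow_succ (k m : ℕ) (h2 : 2 ≤ m) (h1 : m < 2 ^ k) :
    2 ∣ (2 ^ k + 1).choose m := by
  obtain ⟨m, rfl⟩ : ∃ t, m = t + 1 := ⟨m - 1, by omega⟩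
  rw [Nat.choose_succ_succ]
  exact dvd_add (two_dvd_choose_pow k m (by omega) (by omega))
    (two_dvd_choose_pow k (m + 1) (by omega) (by omega))

theorem odd_choose_pow_add (j b : ℕ) (hb : b < 2 ^ j) : Odd ((2 ^ j + b).choose (2 ^ j)) := by
  induction j generalizing b with
  | zero =>
    have : b = 0 := by simpa using hb
    subst this; simp
  | succ j ih =>
    have h1 := Choose.choose_modEq_choose_mod_mul_choose_div_nat (p := 2)
      (n := 2 ^ (j + 1) + b) (k := 2 ^ (j + 1))
    have h2 : 2 ^ (j + 1) % 2 = 0 := by rw [pow_succ]; simp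
    have h3 : 2 ^ (j + 1) / 2 = 2 ^ j := by rw [pow_succ]; simp
    have h4 : (2 ^ (j + 1) + b) / 2 = 2 ^ j + b / 2 := by
      rw [pow_succ]; omega
    rw [h2, h3, h4, Nat.choose_zero_right, one_mul] at h1
    have h5 := ih (b / 2) (by rw [pow_succ] at hb; omega)
    rw [Nat.odd_iff] at h5 ⊢
    unfold Nat.ModEq at h1
    omega

/-- Orbits of a `Syl` subgroup on sets: invariant sets have odd binomial coefficient. -/
theorem odd_choose_of_invariant {A P : Subgroup (Perm α)} (hA : alternatingGroup α ≤ A)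
    (hS : Syl A P) (h3 : 3 ≤ Fintype.card α) (s : Finset α)
    (hs : ∀ g ∈ P, ∀ y, g y ∈ s ↔ y ∈ s) :
    Odd ((Fintype.card α).choose s.card) := by
  classical
  let t : Set.powersetCard α s.card := ⟨s, rfl⟩
  have hsub : P.subgroupOf A ≤ stabilizer A t := by
    intro g hg
    rw [MulAction.mem_stabilizer_iff]
    apply Subtype.ext
    refine Eq.trans Set.powersetCard.coe_smul ?_
    ext z
    rw [← Finset.inv_smul_mem_iff]
    have hg' : (g : Perm α) ∈ P := hg
    have := hs _ hg' (g⁻¹ • z)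
    have h2 : (g : Perm α) (g⁻¹ • z) = z := by
      have : g • (g⁻¹ • z) = z := smul_inv_smul g z
      exact this
    rw [h2] at this
    exact this.symm
  have hodd := hS.odd _ hsub
  rw [MulAction.index_stabilizer] at hodd
  have htrans : IsPretransitive (alternatingGroup α) (Set.powersetCard α s.card) :=
    Set.powersetCard.isPretransitive_alternatingGroup (by rwa [Nat.card_eq_fintype_card])
  have horb : orbit A t = Set.univ := by
    ext t'
    simp only [Set.mem_univ, iff_true]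
    obtain ⟨g, hg⟩ := htrans.exists_smul_eq t t'
    refine ⟨⟨(g : Perm α), hA g.2⟩, ?_⟩
    exact hg
  rw [horb, Set.ncard_univ, Set.powersetCard.card, Nat.card_eq_fintype_card] at hodd
  exact hodd

end Cfsg.Agent.Lib.PermSylow.Basic
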