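import Cfsg.Agent.Lib.PermSylow.Basic

/-!
# Involutions with at most one fixed point commuting with a `2`-subgroup of `Perm α`
-/

set_option autoImplicit false
set_option linter.unusedSectionVars false

namespace Cfsg.Agent.Lib.PermSylow.Invol

open Equiv Equiv.Perm MulAction Cfsg.Agent.Lib.PermSylow.Basic
open scoped Nat

variable {α : Type*} [Fintype α] [DecidableEq α]

theorem odd_doubleFactorial (s : ℕ) : Odd ((2 * s + 1)‼) := by
  induction s with
  | zero => simp [Nat.doubleFactorial]
  | succ s ih =>
    have : 2 * (s + 1) + 1 = (2 * s + 1) + 2 := by ring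
    rw [this, Nat.doubleFactorial_add_two]
    exact Odd.mul ⟨s + 1, by ring⟩ ih

/-- The number of involutions with at most one fixed point is odd. -/
theorem odd_card_invol :
    Odd (Finset.card (Finset.univ.filter fun g : Perm α =>
      g.cycleType = Multiset.replicate (Fintype.card α / 2) 2)) := by
  rw [Equiv.Perm.card_of_cycleType]
  obtain ⟨t, ε, hε, hn⟩ : ∃ t ε, ε ≤ 1 ∧ Fintype.card α = 2 * t + ε :=
    ⟨Fintype.card α / 2, Fintype.card α % 2, by omega, by omega⟩
  have ht : Fintype.card α / 2 = t := by omega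
  rw [ht, hn]
  have hsum : (Multiset.replicate t 2).sum = 2 * t := by
    simp [mul_comm]
  have hcond : (Multiset.replicate t 2).sum ≤ 2 * t + ε ∧ ∀ a ∈ Multiset.replicate t 2, 2 ≤ a := by
    refine ⟨by omega, ?_⟩
    intro a ha
    rw [Multiset.eq_of_mem_replicate ha]
  rw [if_pos hcond, hsum, Multiset.prod_replicate]
  have hfin : ∏ n ∈ (Multiset.replicate t 2).toFinset, ((Multiset.replicate t 2).count n)! = t ! := by
    by_cases ht0 : t = 0
    · subst ht0; simp
    · rw [Multiset.toFinset_replicate, if_neg ht0, Finset.prod_singleton, Multiset.count_replicate_self]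
  rw [hfin]
  have hsub : 2 * t + ε - 2 * t = ε := by omega
  rw [hsub]
  have hε' : ε ! = 1 := by
    interval_cases ε <;> rfl
  rw [hε', one_mul]
  have hpos : 0 < 2 ^ t * t ! := by positivity
  interval_cases ε
  · -- even case
    rcases t with _ | s
    · simp
    · have h1 : (2 * (s + 1) + 0)! = (2 * s + 1)‼ * (2 ^ (s + 1) * (s + 1)!) := by
        have h2 : 2 * (s + 1) + 0 = (2 * s + 1) + 1 := by ring
        rw [h2, Nat.factorial_eq_mul_doubleFactorial]
        have h3 : 2 * s + 1 + 1 = 2 * (s + 1) := by ring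
        rw [h3, Nat.doubleFactorial_two_mul, mul_comm]
      rw [h1, Nat.mul_div_cancel _ (by positivity)]
      exact odd_doubleFactorial s
  · have h1 : (2 * t + 1)! = (2 * t + 1)‼ * (2 ^ t * t !) := by
      rw [Nat.factorial_eq_mul_doubleFactorial, Nat.doubleFactorial_two_mul]
    rw [h1, Nat.mul_div_cancel _ hpos]
    exact odd_doubleFactorial t

theorem invol_props (f : Perm α) (h : f.cycleType = Multiset.replicate (Fintype.card α / 2) 2) :
    f * f = 1 ∧ ∀ y z, f y = y → f z = z → y = z := by
  constructor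
  · have h1 : orderOf f ∣ 2 := by
      rw [← Equiv.Perm.lcm_cycleType, h, Multiset.lcm_dvd]
      intro b hb
      rw [Multiset.eq_of_mem_replicate hb]
    have := orderOf_dvd_iff_pow_eq_one.mp h1
    rwa [pow_two] at this
  · intro y z hy hz
    have h1 : f.support.card = 2 * (Fintype.card α / 2) := by
      rw [← Equiv.Perm.sum_cycleType, h]
      simp [mul_comm]
    have h2 : (f.supportᶜ).card ≤ 1 := by
      rw [Finset.card_compl, h1]
      omega
    have hy' : y ∈ f.supportᶜ := by simpa [Equiv.Perm.mem_support] using hy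
    have hz' : z ∈ f.supportᶜ := by simpa [Equiv.Perm.mem_support] using hz
    exact Finset.card_le_one.mp h2 y hy' z hz'

/-- Every `2`-subgroup of `Perm α` commutes with an involution having at most one fixed point. -/
theorem exists_comm_invol (P : Subgroup (Perm α)) (hP : IsPGroup 2 P) :
    ∃ f : Perm α, f * f = 1 ∧ (∀ y z, f y = y → f z = z → y = z) ∧ ∀ g ∈ P, g * f = f * g := by
  let m := Multiset.replicate (Fintype.card α / 2) 2
  let X := {g : Perm α // g.cycleType = m}
  let _ : MulAction P X :=
    { smul := fun g x => ⟨(g : Perm α) * x.1 * (g : Perm α)⁻¹, by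
        rw [Equiv.Perm.cycleType_conj]; exact x.2⟩
      one_smul := fun x => by
        apply Subtype.ext
        change ((1 : P) : Perm α) * x.1 * ((1 : P) : Perm α)⁻¹ = x.1
        simp
      mul_smul := fun g h x => by
        apply Subtype.ext
        change ((g * h : P) : Perm α) * x.1 * ((g * h : P) : Perm α)⁻¹ =
          (g : Perm α) * ((h : Perm α) * x.1 * (h : Perm α)⁻¹) * (g : Perm α)⁻¹
        simp [mul_assoc] }
  have hcard : Odd (Nat.card X) := by
    rw [Nat.card_eq_fintype_card, Fintype.card_subtype]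
    exact odd_card_invol
  obtain ⟨x, hx⟩ := exists_fixed_of_odd hP hcard
  obtain ⟨h1, h2⟩ := invol_props x.1 x.2
  refine ⟨x.1, h1, h2, ?_⟩
  intro g hg
  have h3 := congrArg Subtype.val (hx ⟨g, hg⟩)
  change g * x.1 * g⁻¹ = x.1 at h3
  rw [mul_inv_eq_iff_eq_mul] at h3
  exact h3

theorem exists_invol : ∃ f : Perm α, f * f = 1 ∧ ∀ y z, f y = y → f z = z → y = z := by
  obtain ⟨f, h1, h2, -⟩ := exists_comm_invol (⊥ : Subgroup (Perm α)) IsPGroup.of_bot
  exact ⟨f, h1, h2⟩

/-- The elementary abelian `2`-group of the permutations moving each point at most to its `f`-image -/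
def pairGroup (f : Perm α) (hf : f * f = 1) : Subgroup (Perm α) where
  carrier := {g | ∀ z, g z = z ∨ g z = f z}
  mul_mem' := by
    intro a b ha hb z
    have hff : ∀ w, f (f w) = w := fun w => by
      have := congrArg (fun h : Perm α => h w) hf
      simpa using this
    rcases hb z with h | h
    · rw [Perm.mul_apply, h]; exact ha z
    · rw [Perm.mul_apply, h]
      rcases ha (f z) with h' | h'
      · right; exact h'
      · left; rw [h', hff]
  one_mem' := fun z => Or.inl rfl
  inv_mem' := by
    intro a ha z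
    have hff : ∀ w, f (f w) = w := fun w => by
      have := congrArg (fun h : Perm α => h w) hf
      simpa using this
    obtain ⟨w, rfl⟩ := a.surjective z
    rw [show a⁻¹ (a w) = w by simp]
    rcases ha w with h | h
    · left; rw [h]
    · right; rw [h, hff]

theorem mem_pairGroup {f : Perm α} {hf : f * f = 1} {g : Perm α} :
    g ∈ pairGroup f hf ↔ ∀ z, g z = z ∨ g z = f z := Iff.rfl

theorem isPGroup_pairGroup (f : Perm α) (hf : f * f = 1) : IsPGroup 2 (pairGroup f hf) := by
  have hff : ∀ w, f (f w) = w := fun w => by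
    have := congrArg (fun h : Perm α => h w) hf
    simpa using this
  rintro ⟨g, hg⟩
  refine ⟨1, ?_⟩
  ext1
  ext z
  change g (g z) = z
  rcases hg z with h | h
  · rw [h, h]
  · rw [h]
    rcases hg (f z) with h' | h'
    · have : f z = z := g.injective (h'.trans h.symm)
      rw [h', this]
    · rw [h', hff]

theorem swap_mem_pairGroup {f : Perm α} {hf : f * f = 1} (y : α) :
    swap y (f y) ∈ pairGroup f hf := by
  have hff : ∀ w, f (f w) = w := fun w => by
    have := congrArg (fun h : Perm α => h w) hf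
    simpa using this
  intro z
  by_cases h1 : z = y
  · subst h1; right; simp
  by_cases h2 : z = f y
  · subst h2; right; simp [hff]
  · left; exact swap_apply_of_ne_of_ne h1 h2

/-- Conjugate `pairGroup f₀ ⊓ alt` into `P`. -/
theorem exists_pair_invol {A P : Subgroup (Perm α)} (hA : alternatingGroup α ≤ A)
    (hS : Syl A P) (f₀ : Perm α) (hf₀ : f₀ * f₀ = 1) (hu : ∀ y z, f₀ y = y → f₀ z = z → y = z) :
    ∃ (f : Perm α) (hf : f * f = 1), (∀ y z, f y = y → f z = z → y = z) ∧
      ∀ g ∈ pairGroup f hf, g ∈ alternatingGroup α → g ∈ P := by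
  have hQ : IsPGroup 2 (pairGroup f₀ hf₀ ⊓ alternatingGroup α : Subgroup (Perm α)) :=
    (isPGroup_pairGroup f₀ hf₀).to_le inf_le_left
  obtain ⟨a, ha, hconj⟩ := hS.conj _ (inf_le_right.trans hA) hQ
  have hf : (a * f₀ * a⁻¹) * (a * f₀ * a⁻¹) = 1 := by
    calc (a * f₀ * a⁻¹) * (a * f₀ * a⁻¹) = a * (f₀ * f₀) * a⁻¹ := by group
      _ = 1 := by rw [hf₀]; group
  refine ⟨a * f₀ * a⁻¹, hf, ?_, ?_⟩
  · intro y z hy hz
    have hy' : f₀ (a⁻¹ y) = a⁻¹ y := by
      apply a.injective
      simpa using hy
    have hz' : f₀ (a⁻¹ z) = a⁻¹ z := by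
      apply a.injective
      simpa using hz
    exact a⁻¹.injective (hu _ _ hy' hz')
  · intro g hg hgalt
    have h1 : a⁻¹ * g * a ∈ pairGroup f₀ hf₀ := by
      intro z
      rcases hg (a z) with h | h
      · left; simp [h]
      · right; simp [h]
    have h2 : a⁻¹ * g * a ∈ alternatingGroup α := by
      rw [Equiv.Perm.mem_alternatingGroup] at hgalt ⊢
      simp [hgalt, mul_comm]
    have h3 := hconj _ ⟨h1, h2⟩
    have h4 : a * (a⁻¹ * g * a) * a⁻¹ = g := by group
    rwa [h4] at h3

end Cfsg.Agent.Lib.PermSylow.Invol
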