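import Cfsg.Agent.Lib.PermSylow.Invol

/-!
# Sylow `2`-subgroups of `A` on `2 ^ k + 1` points
-/

set_option autoImplicit false
set_option linter.unusedSectionVars false

namespace Cfsg.Agent.Lib.PermSylow.OnePoint

open Equiv Equiv.Perm MulAction Cfsg.Agent.Lib.PermSylow.Basic Cfsg.Agent.Lib.PermSylow.Invol
open scoped Pointwise

variable {α : Type*} [Fintype α] [DecidableEq α]

/-- In a block of `H`, an element sending a point of `B` into `B` preserves `B`. -/
theorem block_mem {H : Subgroup (Perm α)} {B : Set α} (hB : IsBlock H B) {g : Perm α} (hg : g ∈ H)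
    {a : α} (ha : a ∈ B) (hga : g a ∈ B) {z : α} (hz : z ∈ B) : g z ∈ B := by
  have h1 : (⟨g, hg⟩ : H) • B = B := hB.smul_eq_of_mem (g := ⟨g, hg⟩) ha hga
  have h2 : (⟨g, hg⟩ : H) • z ∈ (⟨g, hg⟩ : H) • B := Set.smul_mem_smul_set hz
  rw [h1] at h2
  exact h2

theorem exists_fixed_point {P : Subgroup (Perm α)} (hP : IsPGroup 2 P)
    (h : Odd (Fintype.card α)) : ∃ x, ∀ g ∈ P, g x = x := by
  obtain ⟨x, hx⟩ := exists_fixed_of_odd (X := α) hP (by rwa [Nat.card_eq_fintype_card])
  exact ⟨x, fun g hg => hx ⟨g, hg⟩⟩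

theorem orbit_props (P : Subgroup (Perm α)) (y : α) :
    ∃ O : Finset α, y ∈ O ∧ (∀ z ∈ O, ∃ g ∈ P, g y = z) ∧ ∀ g ∈ P, ∀ w, g w ∈ O ↔ w ∈ O := by
  classical
  refine ⟨Finset.univ.filter (fun z => ∃ g ∈ P, g y = z), ?_, ?_, ?_⟩
  · exact Finset.mem_filter.mpr ⟨Finset.mem_univ _, 1, P.one_mem, rfl⟩
  · intro z hz
    exact (Finset.mem_filter.mp hz).2
  intro g hg w
  simp only [Finset.mem_filter, Finset.mem_univ, true_and]
  constructor
  · rintro ⟨h, hh, hhy⟩
    refine ⟨g⁻¹ * h, P.mul_mem (P.inv_mem hg) hh, ?_⟩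
    simp [hhy]
  · rintro ⟨h, hh, rfl⟩
    exact ⟨g * h, P.mul_mem hg hh, rfl⟩

/-- On `2 ^ k + 1` points, a Sylow `2`-subgroup fixes a unique point and is transitive on the rest. -/
theorem fixed_trans {A P : Subgroup (Perm α)} (hA : alternatingGroup α ≤ A) (hS : Syl A P)
    (k : ℕ) (hk : 2 ≤ k) (hn : Fintype.card α = 2 ^ k + 1) :
    ∃ x, (∀ g ∈ P, g x = x) ∧ ∀ y z, y ≠ x → z ≠ x → ∃ g ∈ P, g y = z := by
  have h4 : 4 ≤ 2 ^ k := by
    calc 4 = 2 ^ 2 := by norm_num
      _ ≤ 2 ^ k := Nat.pow_le_pow_right (by norm_num) hk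
  have h3 : 3 ≤ Fintype.card α := by omega
  have hodd : Odd (Fintype.card α) := by
    rw [hn]
    exact Even.add_one ((even_iff_two_dvd).mpr (dvd_pow_self 2 (by omega)))
  obtain ⟨x, hx⟩ := exists_fixed_point hS.pg hodd
  refine ⟨x, hx, ?_⟩
  intro y z hy hz
  obtain ⟨O, hyO, hOmem, hO⟩ := orbit_props P y
  by_contra hcon
  have hzO : z ∉ O := by
    intro hzO
    obtain ⟨g, hg, hgz⟩ := hOmem z hzO
    exact hcon ⟨g, hg, hgz⟩
  have hxO : x ∉ O := by
    intro hxO
    obtain ⟨g, hg, hgx⟩ := hOmem x hxO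
    apply hy
    have := hx g hg
    exact g.injective (hgx.trans this.symm)
  have hcard : O.card + 2 ≤ 2 ^ k + 1 := by
    have hsub : insert x (insert z O) ⊆ (Finset.univ : Finset α) := Finset.subset_univ _
    have h1 := Finset.card_le_card hsub
    rw [Finset.card_insert_of_notMem, Finset.card_insert_of_notMem hzO, Finset.card_univ, hn] at h1
    · omega
    · simp [hxO, hz.symm]
  have hO1 : 1 ≤ O.card := Finset.card_pos.mpr ⟨y, hyO⟩
  have hoddO := odd_choose_of_invariant hA hS h3 O hO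
  rw [hn] at hoddO
  have hO1' : O.card = 1 := by
    by_contra hne
    have := two_dvd_choose_pow_succ k O.card (by omega) (by omega)
    exact (Nat.not_even_iff_odd.mpr hoddO) (even_iff_two_dvd.mpr this)
  -- now `y` is fixed by `P`
  have hfy : ∀ g ∈ P, g y = y := by
    intro g hg
    have h1 : g y ∈ O := (hO g hg y).mpr hyO
    exact Finset.card_le_one.mp hO1'.le _ h1 _ hyO
  have hinv : ∀ g ∈ P, ∀ w, g w ∈ ({x, y} : Finset α) ↔ w ∈ ({x, y} : Finset α) := by
    intro g hg w
    simp only [Finset.mem_insert, Finset.mem_singleton]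
    constructor
    · rintro (h | h)
      · left; exact g.injective (h.trans (hx g hg).symm)
      · right; exact g.injective (h.trans (hfy g hg).symm)
    · rintro (rfl | rfl)
      · left; exact hx g hg
      · right; exact hfy g hg
  have hodd2 := odd_choose_of_invariant hA hS h3 {x, y} hinv
  rw [hn, Finset.card_pair hy.symm] at hodd2
  have := two_dvd_choose_pow_succ k 2 le_rfl (by omega)
  exact (Nat.not_even_iff_odd.mpr hodd2) (even_iff_two_dvd.mpr this)

/-- A subgroup containing `P` and moving `x` is primitive. -/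
theorem isPreprimitive_of_moves {P H : Subgroup (Perm α)} (hPH : P ≤ H) {x : α}
    (hx : ∀ g ∈ P, g x = x) (htr : ∀ y z, y ≠ x → z ≠ x → ∃ g ∈ P, g y = z)
    {h : Perm α} (hh : h ∈ H) (hmove : h x ≠ x) : IsPreprimitive H α := by
  have hbase : ∀ y, ∃ g ∈ H, g x = y := by
    intro y
    by_cases hy : y = x
    · exact ⟨1, H.one_mem, by simp [hy]⟩
    · obtain ⟨g, hg, hgy⟩ := htr (h x) y hmove hy
      exact ⟨g * h, H.mul_mem (hPH hg) hh, hgy⟩
  have : IsPretransitive H α := by
    constructor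
    intro a b
    obtain ⟨g₁, hg₁, h1⟩ := hbase a
    obtain ⟨g₂, hg₂, h2⟩ := hbase b
    refine ⟨⟨g₂ * g₁⁻¹, H.mul_mem hg₂ (H.inv_mem hg₁)⟩, ?_⟩
    change (g₂ * g₁⁻¹) a = b
    rw [Perm.mul_apply, ← h1]
    simp [h2]
  apply IsPreprimitive.of_isTrivialBlock_base x
  intro B hxB hB
  by_cases hsub : B.Subsingleton
  · exact Or.inl hsub
  right
  obtain ⟨y, hyB, hyx⟩ : ∃ y ∈ B, y ≠ x := by
    by_contra hcon
    push Not at hcon
    apply hsub
    intro a ha b hb
    rw [hcon a ha, hcon b hb]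
  rw [Set.eq_univ_iff_forall]
  intro z
  by_cases hz : z = x
  · rw [hz]; exact hxB
  obtain ⟨g, hg, hgy⟩ := htr y z hyx hz
  rw [← hgy]
  exact block_mem hB (hPH hg) hxB (by rw [hx g hg]; exact hxB) hyB

/-- A `Syl` subgroup of `⊤` contains a swap. -/
theorem exists_swap_mem {P : Subgroup (Perm α)} (hS : Syl ⊤ P) {a b : α} (hab : a ≠ b) :
    ∃ g ∈ P, IsSwap g := by
  have hQ : IsPGroup 2 (Subgroup.zpowers (swap a b)) := by
    rintro ⟨g, hg⟩
    refine ⟨1, ?_⟩
    ext1
    obtain ⟨i, rfl⟩ := Subgroup.mem_zpowers_iff.mp hg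
    change (swap a b ^ i) ^ 2 ^ 1 = 1
    rw [← zpow_natCast, ← zpow_mul, mul_comm, zpow_mul]
    simp [pow_two]
  obtain ⟨c, -, hc⟩ := hS.conj _ le_top hQ
  refine ⟨_, hc _ (Subgroup.mem_zpowers (swap a b)), ?_⟩
  refine ⟨c a, c b, c.injective.ne hab, ?_⟩
  rw [mul_swap_eq_swap_mul, mul_assoc, mul_inv_cancel, mul_one]

/-- Squaring a suitable product of double transpositions gives a 3-cycle. -/
theorem isThreeCycle_sq_of_distinct {x y y' u v r r' : α}
    (h1 : x ≠ y) (h2 : x ≠ y') (h3 : x ≠ u) (h4 : x ≠ v) (h5 : x ≠ r) (h6 : x ≠ r')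
    (h7 : y ≠ y') (h8 : y ≠ u) (h9 : y ≠ v) (h10 : y ≠ r) (h11 : y ≠ r')
    (h12 : y' ≠ u) (h13 : y' ≠ v) (h14 : y' ≠ r) (h15 : y' ≠ r')
    (h16 : u ≠ v) (h17 : u ≠ r) (h18 : u ≠ r') (h19 : v ≠ r) (h20 : v ≠ r') (h21 : r ≠ r') :
    IsThreeCycle (((swap x y * swap u v) * (swap y y' * swap r r')) ^ 2) := by
  have d1 : Commute (swap u v) (swap y y') :=
    (Equiv.Perm.disjoint_swap_swap (by simp [*, Ne.symm])).commute
  have d2 : Commute (swap u v) (swap y x) :=
    (Equiv.Perm.disjoint_swap_swap (by simp [*, Ne.symm])).commute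
  have d3 : Commute (swap u v) (swap r r') :=
    (Equiv.Perm.disjoint_swap_swap (by simp [*, Ne.symm])).commute
  have d4 : Commute (swap y x) (swap r r') :=
    (Equiv.Perm.disjoint_swap_swap (by simp [*, Ne.symm])).commute
  have d5 : Commute (swap y y') (swap r r') :=
    (Equiv.Perm.disjoint_swap_swap (by simp [*, Ne.symm])).commute
  have hc : (swap x y * swap u v) * (swap y y' * swap r r') =
      (swap y x * swap y y') * (swap u v * swap r r') := by
    rw [swap_comm x y]
    calc swap y x * swap u v * (swap y y' * swap r r')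
        = swap y x * (swap u v * swap y y') * swap r r' := by simp only [mul_assoc]
      _ = swap y x * (swap y y' * swap u v) * swap r r' := by rw [d1.eq]
      _ = _ := by simp only [mul_assoc]
  have hcomm : Commute (swap y x * swap y y') (swap u v * swap r r') := by
    apply Commute.mul_left
    · exact d2.symm.mul_right d4
    · exact d1.symm.mul_right d5
  rw [hc, hcomm.mul_pow]
  have hz : (swap u v * swap r r') ^ 2 = 1 := by
    rw [d3.mul_pow, pow_two, pow_two]
    simp
  rw [hz, mul_one]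
  exact (isThreeCycle_swap_mul_swap_same h1.symm h7 (by
    intro h
    exact h2 h)).isThreeCycle_sq

theorem conj_swap (h : Perm α) (a b : α) : h * swap a b * h⁻¹ = swap (h a) (h b) := by
  rw [mul_swap_eq_swap_mul, mul_assoc, mul_inv_cancel, mul_one]

theorem exists_avoid (l : List α) (h : l.length < Fintype.card α) : ∃ z, z ∉ l := by
  by_contra hcon
  push Not at hcon
  have h1 : l.toFinset = Finset.univ := by
    ext z
    simp [hcon z]
  have h2 := List.toFinset_card_le l
  rw [h1, Finset.card_univ] at h2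
  omega

/-- The three-cycle in `H`, for at least `9` points. -/
theorem exists_threeCycle {P H : Subgroup (Perm α)} (hPH : P ≤ H) {x : α}
    (hx : ∀ g ∈ P, g x = x) (hH : ∀ y, ∃ g ∈ H, g x = y) (hn : 9 ≤ Fintype.card α)
    (f : Perm α) (hf : f * f = 1) (hu : ∀ y z, f y = y → f z = z → y = z)
    (hpair : ∀ g ∈ pairGroup f hf, g ∈ alternatingGroup α → g ∈ P) :
    ∃ c ∈ H, IsThreeCycle c := by
  have hff : ∀ w, f (f w) = w := fun w => by
    have := congrArg (fun h : Perm α => h w) hf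
    simpa using this
  -- pairs of pairs lie in `P`
  have hpp : ∀ a b, f a ≠ a → f b ≠ b → swap a (f a) * swap b (f b) ∈ P := by
    intro a b ha hb
    apply hpair
    · exact (pairGroup f hf).mul_mem (swap_mem_pairGroup a) (swap_mem_pairGroup b)
    · rw [Equiv.Perm.mem_alternatingGroup, Perm.sign_mul, sign_swap ha.symm, sign_swap hb.symm]
      simp
  -- `x` is the fixed point of `f`
  have hfx : f x = x := by
    by_contra hne
    obtain ⟨r, hr⟩ := exists_avoid [x, f x] (by simp; omega)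
    obtain ⟨r₂, hr₂⟩ := exists_avoid [x, f x, r] (by simp; omega)
    simp only [List.mem_cons, List.not_mem_nil, or_false, not_or] at hr hr₂
    have key : ∃ r, r ≠ x ∧ r ≠ f x ∧ f r ≠ r := by
      by_cases hfr : f r = r
      · refine ⟨r₂, hr₂.1, hr₂.2.1, fun h => hr₂.2.2 (hu _ _ h hfr)⟩
      · exact ⟨r, hr.1, hr.2, hfr⟩
    obtain ⟨r, hr1, hr2, hr3⟩ := key
    have h1 := hx _ (hpp x r hne hr3)
    rw [Perm.mul_apply, swap_apply_of_ne_of_ne hr1.symm (by
      intro h
      apply hr2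
      rw [h, hff]), swap_apply_left] at h1
    exact hne h1
  have hfne : ∀ y, y ≠ x → f y ≠ y := fun y hy h => hy (hu _ _ h hfx)
  have hfne' : ∀ y, y ≠ x → f y ≠ x := fun y hy h => hy (by
    have := hff y
    rw [h, hfx] at this
    exact this.symm)
  obtain ⟨a, ha⟩ := exists_avoid [x] (by simp; omega)
  simp only [List.mem_cons, List.not_mem_nil, or_false] at ha
  obtain ⟨g, hg, hga⟩ := hH a
  obtain ⟨h, hh, hha⟩ : ∃ h ∈ H, h a = x := ⟨g⁻¹, H.inv_mem hg, by rw [← hga]; simp⟩
  obtain ⟨y, hy⟩ : ∃ y, y = h (f a) := ⟨_, rfl⟩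
  have hyx : y ≠ x := by
    rw [hy, ← hha]
    exact h.injective.ne (hfne a ha)
  obtain ⟨y', hy'⟩ : ∃ y', y' = f y := ⟨_, rfl⟩
  have hyy' : y ≠ y' := by
    rw [hy']
    exact (hfne y hyx).symm
  have hy'x : x ≠ y' := by
    rw [hy']
    exact (hfne' y hyx).symm
  obtain ⟨w, hw⟩ : ∃ w, h w = y' := ⟨h⁻¹ y', by simp⟩
  obtain ⟨b, hb⟩ := exists_avoid [x, a, f a, w, f w] (by simp; omega)
  simp only [List.mem_cons, List.not_mem_nil, or_false, not_or] at hb
  obtain ⟨hb1, hb2, hb3, hb4, hb5⟩ := hb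
  obtain ⟨u, hu'⟩ : ∃ u, u = h b := ⟨_, rfl⟩
  obtain ⟨v, hv⟩ : ∃ v, v = h (f b) := ⟨_, rfl⟩
  have hs : swap x y * swap u v ∈ H := by
    have h1 := H.mul_mem (H.mul_mem hh (hPH (hpp a b (hfne a ha) (hfne b hb1)))) (H.inv_mem hh)
    have h2 : h * (swap a (f a) * swap b (f b)) * h⁻¹ = swap x y * swap u v := by
      have e1 : h * (swap a (f a) * swap b (f b)) * h⁻¹ =
          (h * swap a (f a) * h⁻¹) * (h * swap b (f b) * h⁻¹) := by group
      rw [e1, conj_swap, conj_swap, hha, ← hy, ← hu', ← hv]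
    rwa [h2] at h1
  have hinj : ∀ {p q : α}, p ≠ q → h p ≠ h q := fun hpq => h.injective.ne hpq
  have hbne : b ≠ f b := (hfne b hb1).symm
  have hxu : x ≠ u := by rw [← hha, hu']; exact hinj (Ne.symm hb2)
  have hxv : x ≠ v := by
    rw [← hha, hv]; apply hinj; intro h3; apply hb3; rw [h3, hff]
  have hyu : y ≠ u := by rw [hy, hu']; exact hinj (Ne.symm hb3)
  have hyv : y ≠ v := by
    rw [hy, hv]; apply hinj; intro h3; exact hb2 (f.injective h3.symm)
  have hy'u : y' ≠ u := by rw [← hw, hu']; exact hinj (Ne.symm hb4)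
  have hy'v : y' ≠ v := by
    rw [← hw, hv]; apply hinj; intro h3; apply hb5; rw [h3, hff]
  have huv : u ≠ v := by rw [hu', hv]; exact hinj hbne
  obtain ⟨r, hr⟩ := exists_avoid [x, y, y', u, v, f u, f v] (by simp; omega)
  simp only [List.mem_cons, List.not_mem_nil, or_false, not_or] at hr
  obtain ⟨hr1, hr2, hr3, hr4, hr5, hr6, hr7⟩ := hr
  obtain ⟨r', hr'⟩ : ∃ r', r' = f r := ⟨_, rfl⟩
  have hrr' : r ≠ r' := by rw [hr']; exact (hfne r hr1).symm
  have hxr' : x ≠ r' := by rw [hr']; exact (hfne' r hr1).symm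
  have hyr' : y ≠ r' := by
    rw [hr']; intro h3; apply hr3; rw [hy', h3, hff]
  have hy'r' : y' ≠ r' := by
    rw [hr', hy']; intro h3; exact hr2 (f.injective h3).symm
  have hur' : u ≠ r' := by
    rw [hr']; intro h3; apply hr6; rw [h3, hff]
  have hvr' : v ≠ r' := by
    rw [hr']; intro h3; apply hr7; rw [h3, hff]
  have ht : swap y y' * swap r r' ∈ H := by
    have := hPH (hpp y r (hfne y hyx) (hfne r hr1))
    rwa [← hy', ← hr'] at this
  refine ⟨_, H.pow_mem (H.mul_mem hs ht) 2, ?_⟩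
  exact isThreeCycle_sq_of_distinct hyx.symm hy'x hxu hxv (Ne.symm hr1) hxr' hyy' hyu hyv
    (Ne.symm hr2) hyr' hy'u hy'v (Ne.symm hr3) hy'r' huv (Ne.symm hr4) hur' (Ne.symm hr5) hvr' hrr'

theorem simple_index_three {G : Type*} [Group G] [Finite G] [hs : IsSimpleGroup G] (H : Subgroup G)
    (h : H.index = 3) (hc : 6 < Nat.card G) : False := by
  let φ := MulAction.toPermHom G (G ⧸ H)
  have hker : φ.ker ≤ H := by
    rw [← Subgroup.normalCore_eq_ker]
    exact Subgroup.normalCore_le H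
  rcases hs.eq_bot_or_eq_top_of_normal φ.ker inferInstance with h1 | h1
  · have hinj : Function.Injective φ := (MonoidHom.ker_eq_bot_iff φ).mp h1
    have h2 := Nat.card_le_card_of_injective φ hinj
    rw [Nat.card_perm, ← Subgroup.index_eq_card, h] at h2
    norm_num [Nat.factorial] at h2
    omega
  · rw [h1] at hker
    have : H = ⊤ := top_le_iff.mp hker
    rw [this, Subgroup.index_top] at h
    omega

theorem hbase_of_moves {P H : Subgroup (Perm α)} (hPH : P ≤ H) {x : α}
    (htr : ∀ y z, y ≠ x → z ≠ x → ∃ g ∈ P, g y = z)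
    {h : Perm α} (hh : h ∈ H) (hmove : h x ≠ x) : ∀ y, ∃ g ∈ H, g x = y := by
  intro y
  by_cases hy : y = x
  · exact ⟨1, H.one_mem, by simp [hy]⟩
  · obtain ⟨g, hg, hgy⟩ := htr (h x) y hmove hy
    exact ⟨g * h, H.mul_mem (hPH hg) hh, hgy⟩

theorem yes_perm {P : Subgroup (Perm α)} (hS : Syl ⊤ P) (k : ℕ) (hk : 2 ≤ k)
    (hn : Fintype.card α = 2 ^ k + 1) :
    ∃ S : Subgroup (Perm α), P ≤ S ∧ ¬ (⊤ ≤ S) ∧ ∀ H, P ≤ H → H ≤ ⊤ → H ≤ S ∨ H = ⊤ := by
  obtain ⟨x, hx, htr⟩ := fixed_trans le_top hS k hk hn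
  have h4 : 4 ≤ 2 ^ k := by
    calc 4 = 2 ^ 2 := by norm_num
      _ ≤ 2 ^ k := Nat.pow_le_pow_right (by norm_num) hk
  obtain ⟨b, hb⟩ := exists_avoid [x] (by simp; omega)
  simp only [List.mem_cons, List.not_mem_nil, or_false] at hb
  refine ⟨stabilizer (Perm α) x, fun g hg => hx g hg, ?_, ?_⟩
  · intro h
    have : swap x b ∈ stabilizer (Perm α) x := h (Subgroup.mem_top _)
    have h2 : swap x b x = x := this
    rw [swap_apply_left] at h2
    exact hb h2
  · intro H hPH _
    by_cases hm : ∀ h ∈ H, h x = x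
    · exact Or.inl fun h hh => hm h hh
    push Not at hm
    obtain ⟨h, hh, hmove⟩ := hm
    right
    have hprim := isPreprimitive_of_moves hPH hx htr hh hmove
    obtain ⟨g, hg, hsw⟩ := exists_swap_mem hS (a := x) (b := b) (Ne.symm hb)
    exact subgroup_eq_top_of_isPreprimitive_of_isSwap_mem hprim g hsw (hPH hg)

theorem yes_alt {P : Subgroup (Perm α)} (hS : Syl (alternatingGroup α) P) (k : ℕ) (hk : 2 ≤ k)
    (hn : Fintype.card α = 2 ^ k + 1)
    (hsimp : Fintype.card α = 5 → IsSimpleGroup (alternatingGroup α)) :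
    ∃ S : Subgroup (Perm α), P ≤ S ∧ ¬ (alternatingGroup α ≤ S) ∧
      ∀ H, P ≤ H → H ≤ alternatingGroup α → H ≤ S ∨ H = alternatingGroup α := by
  obtain ⟨x, hx, htr⟩ := fixed_trans le_rfl hS k hk hn
  have h4 : 4 ≤ 2 ^ k := by
    calc 4 = 2 ^ 2 := by norm_num
      _ ≤ 2 ^ k := Nat.pow_le_pow_right (by norm_num) hk
  refine ⟨stabilizer (Perm α) x, fun g hg => hx g hg, ?_, ?_⟩
  · intro h
    obtain ⟨b, hb⟩ := exists_avoid [x] (by simp; omega)
    obtain ⟨c, hc⟩ := exists_avoid [x, b] (by simp; omega)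
    simp only [List.mem_cons, List.not_mem_nil, or_false, not_or] at hb hc
    have h3 := isThreeCycle_swap_mul_swap_same (a := x) (b := b) (c := c) (Ne.symm hb) (Ne.symm hc.1)
      (Ne.symm hc.2)
    have h2 : (swap x b * swap x c) x = x := h h3.mem_alternatingGroup
    rw [Perm.mul_apply, swap_apply_left, swap_apply_of_ne_of_ne hc.1 hc.2] at h2
    exact hc.1 h2
  · intro H hPH hHalt
    by_cases hm : ∀ h ∈ H, h x = x
    · exact Or.inl fun h hh => hm h hh
    push Not at hm
    obtain ⟨h, hh, hmove⟩ := hm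
    right
    have hprim := isPreprimitive_of_moves hPH hx htr hh hmove
    apply le_antisymm hHalt
    by_cases hk3 : 3 ≤ k
    · have h8 : 8 ≤ 2 ^ k := by
        calc 8 = 2 ^ 3 := by norm_num
          _ ≤ 2 ^ k := Nat.pow_le_pow_right (by norm_num) hk3
      obtain ⟨f₀, hf₀, hu₀⟩ := exists_invol (α := α)
      obtain ⟨f, hf, hu, hpair⟩ := exists_pair_invol le_rfl hS f₀ hf₀ hu₀
      obtain ⟨c, hc, h3⟩ := exists_threeCycle hPH hx (hbase_of_moves hPH htr hh hmove) (by omega)
        f hf hu hpair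
      exact alternatingGroup_le_of_isPreprimitive_of_isThreeCycle_mem hprim h3 hc
    · have hk2 : k = 2 := by omega
      subst hk2
      have hn5 : Fintype.card α = 5 := by rw [hn]; norm_num
      have := hsimp hn5
      -- the index of `H` in the alternating group
      let H' := H.subgroupOf (alternatingGroup α)
      have hodd : Odd H'.index := hS.odd H' (fun g hg => hPH hg)
      have : Nontrivial α := by
        rw [← Fintype.one_lt_card_iff_nontrivial]; omega
      have hcardalt : Nat.card (alternatingGroup α) = 60 := by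
        have := two_mul_nat_card_alternatingGroup (α := α)
        rw [Nat.card_perm, Nat.card_eq_fintype_card (α := α), hn5,
          show Nat.factorial 5 = 120 from rfl] at this
        omega
      have hcardH' : Nat.card H' = Nat.card H :=
        Nat.card_congr (Subgroup.subgroupOfEquivOfLe hHalt).toEquiv
      have h5 : 5 ∣ Nat.card H := by
        have h1 := Subgroup.index_dvd_card (stabilizer H x)
        rw [index_stabilizer_of_transitive, Nat.card_eq_fintype_card, hn5] at h1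
        exact h1
      have hmul : H'.index * Nat.card H' = 60 := by
        rw [Subgroup.index_mul_card, hcardalt]
      rw [hcardH'] at hmul
      obtain ⟨m, hm⟩ := h5
      rw [hm] at hmul
      have hdvd : H'.index ∣ 12 := ⟨m, by
        have : 5 * (H'.index * m) = 60 := by rw [← hmul]; ring
        omega⟩
      have hle : H'.index ≤ 12 := Nat.le_of_dvd (by norm_num) hdvd
      have hcases : H'.index = 1 ∨ H'.index = 3 := by
        have hne0 : H'.index ≠ 0 := by
          intro h0; rw [h0] at hmul; omega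
        rw [Nat.odd_iff] at hodd
        interval_cases hi : H'.index <;> simp_all <;> omega
      rcases hcases with h1 | h3
      · rw [Subgroup.index_eq_one] at h1
        intro g hg
        have : (⟨g, hg⟩ : alternatingGroup α) ∈ H' := by rw [h1]; trivial
        exact this
      · exact (simple_index_three H' h3 (by rw [hcardalt]; norm_num)).elim

end Cfsg.Agent.Lib.PermSylow.OnePoint
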