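import Cfsg.Agent.Lib.PermSylow.OnePoint

/-!
# Two maximal subgroups above a Sylow `2`-subgroup of `A`
-/

set_option autoImplicit false
set_option linter.unusedSectionVars false

namespace Cfsg.Agent.Lib.PermSylow.TwoMax

open Equiv Equiv.Perm MulAction Cfsg.Agent.Lib.PermSylow.Basic Cfsg.Agent.Lib.PermSylow.Invol
open Cfsg.Agent.Lib.PermSylow.OnePoint
open scoped Pointwise

variable {α : Type*} [Fintype α] [DecidableEq α]

/-- the 3-cycle `a → b → c → a` -/
def cy (a b c : α) : Perm α := swap a c * swap a b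

theorem cy_isThreeCycle {a b c : α} (hab : a ≠ b) (hac : a ≠ c) (hbc : b ≠ c) :
    IsThreeCycle (cy a b c) :=
  isThreeCycle_swap_mul_swap_same hac hab hbc.symm

theorem cy_left {a b c : α} (hab : a ≠ b) (hbc : b ≠ c) : cy a b c a = b := by
  simp only [cy, Perm.mul_apply, swap_apply_left]
  exact swap_apply_of_ne_of_ne hab.symm hbc

theorem cy_mid {a b c : α} : cy a b c b = c := by
  simp [cy, Perm.mul_apply]

theorem cy_right {a b c : α} (hac : a ≠ c) (hbc : b ≠ c) : cy a b c c = a := by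
  simp only [cy, Perm.mul_apply]
  rw [swap_apply_of_ne_of_ne hac.symm hbc.symm, swap_apply_right]

theorem cy_of_ne {a b c z : α} (ha : z ≠ a) (hb : z ≠ b) (hc : z ≠ c) : cy a b c z = z := by
  simp only [cy, Perm.mul_apply]
  rw [swap_apply_of_ne_of_ne ha hb, swap_apply_of_ne_of_ne ha hc]

theorem cy_mem_alt {a b c : α} (hab : a ≠ b) (hac : a ≠ c) (hbc : b ≠ c) :
    cy a b c ∈ alternatingGroup α :=
  (cy_isThreeCycle hab hac hbc).mem_alternatingGroup

/-- `cy` preserves every predicate taking equal values at the three points. -/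
theorem cy_pred {a b c : α} (hab : a ≠ b) (hac : a ≠ c) (hbc : b ≠ c) (S : α → Prop)
    (h1 : S a ↔ S b) (h2 : S b ↔ S c) (y : α) : S (cy a b c y) ↔ S y := by
  by_cases hya : y = a
  · subst hya; rw [cy_left hab hbc]; exact h1.symm
  by_cases hyb : y = b
  · subst hyb; rw [cy_mid]; exact h2.symm
  by_cases hyc : y = c
  · subst hyc; rw [cy_right hac hbc]; exact h1.trans h2
  rw [cy_of_ne hya hyb hyc]

theorem mem_stab_iff (O : Set α) (g : Perm α) :
    g ∈ stabilizer (Perm α) O ↔ ∀ y, g y ∈ O ↔ y ∈ O := by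
  rw [MulAction.mem_stabilizer_iff]
  constructor
  · intro h y
    constructor
    · intro hy
      rw [← h] at hy
      have h2 := Set.smul_mem_smul_set_iff (a := g) (x := y) (s := O)
      exact h2.mp hy
    · intro hy
      rw [← h]
      exact Set.smul_mem_smul_set hy
  · intro h
    ext z
    rw [Set.mem_smul_set_iff_inv_smul_mem]
    have := h (g⁻¹ • z)
    rw [← this]
    have h2 : g (g⁻¹ • z) = z := by
      change g • (g⁻¹ • z) = z
      simp
    rw [h2]

/-- Relative maximality of set stabilizers, for `A` alternating or symmetric. -/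
theorem stab_rel_coatom {A : Subgroup (Perm α)} (hA : A = alternatingGroup α ∨ A = ⊤)
    (O : Set α) (h0 : O.Nonempty) (h1 : Oᶜ.Nonempty) (hs : Nat.card α ≠ 2 * O.ncard)
    (M : Subgroup (Perm α)) (hM : M ≤ A) (hsub : stabilizer (Perm α) O ⊓ A ≤ M)
    (g : Perm α) (hg : g ∈ M) (hgO : g ∉ stabilizer (Perm α) O) : M = A := by
  rcases hA with rfl | rfl
  · have hc := alternatingGroup.isCoatom_stabilizer h0 h1 hs
    let M' := M.subgroupOf (alternatingGroup α)
    have hle : stabilizer (alternatingGroup α) O ≤ M' := by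
      intro x hx
      apply hsub
      refine ⟨?_, x.2⟩
      exact hx
    have hne : stabilizer (alternatingGroup α) O ≠ M' := by
      intro he
      have : (⟨g, hM hg⟩ : alternatingGroup α) ∈ M' := hg
      rw [← he] at this
      exact hgO this
    have htop : M' = ⊤ := hc.2 M' (lt_of_le_of_ne hle hne)
    apply le_antisymm hM
    intro x hx
    have : (⟨x, hx⟩ : alternatingGroup α) ∈ M' := by rw [htop]; trivial
    exact this
  · have hc := Equiv.Perm.isCoatom_stabilizer h0 h1 hs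
    have hle : stabilizer (Perm α) O ≤ M := by
      intro x hx
      exact hsub ⟨hx, trivial⟩
    have hne : stabilizer (Perm α) O ≠ M := by
      intro he
      rw [← he] at hg
      exact hgO hg
    exact hc.2 M (lt_of_le_of_ne hle hne)

/-- The element `(p q)(fp fq)` -/
theorem swap_pair_props (f : Perm α) (hf : f * f = 1) {p q : α}
    (h1 : p ≠ q) (h2 : f p ≠ p) (h3 : f q ≠ q) (h4 : p ≠ f q) :
    swap p q * swap (f p) (f q) ∈ alternatingGroup α ∧
      (swap p q * swap (f p) (f q)) * f = f * (swap p q * swap (f p) (f q)) ∧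
      (swap p q * swap (f p) (f q)) p = q ∧
      ∀ r, r ≠ p → r ≠ q → r ≠ f p → r ≠ f q → (swap p q * swap (f p) (f q)) r = r := by
  have hff : ∀ w, f (f w) = w := fun w => by
    have := congrArg (fun h : Perm α => h w) hf
    simpa using this
  have h5 : f p ≠ f q := f.injective.ne h1
  have h6 : q ≠ f p := by
    intro h; apply h4; rw [h, hff]
  refine ⟨?_, ?_, ?_, ?_⟩
  · rw [Equiv.Perm.mem_alternatingGroup, Perm.sign_mul, sign_swap h1, sign_swap h5]
    simp
  · have hd : Commute (swap p q) (swap (f p) (f q)) :=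
      (Equiv.Perm.disjoint_swap_swap (by simp [*, Ne.symm])).commute
    have e1 : f * swap p q = swap (f p) (f q) * f := mul_swap_eq_swap_mul f p q
    have e2 : f * swap (f p) (f q) = swap p q * f := by
      rw [mul_swap_eq_swap_mul, hff, hff]
    symm
    calc f * (swap p q * swap (f p) (f q))
        = (f * swap p q) * swap (f p) (f q) := by rw [mul_assoc]
      _ = swap (f p) (f q) * (f * swap (f p) (f q)) := by rw [e1, mul_assoc]
      _ = (swap (f p) (f q) * swap p q) * f := by rw [e2, mul_assoc]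
      _ = _ := by rw [hd.eq]
  · rw [Perm.mul_apply, swap_apply_of_ne_of_ne h2.symm h4, swap_apply_left]
  · intro r hr1 hr2 hr3 hr4
    rw [Perm.mul_apply, swap_apply_of_ne_of_ne hr3 hr4, swap_apply_of_ne_of_ne hr1 hr2]

/-- The element `(p fp)(q fq)` -/
theorem double_pair_props (f : Perm α) (hf : f * f = 1) {p q : α}
    (h1 : p ≠ q) (h2 : f p ≠ p) (h3 : f q ≠ q) (h4 : p ≠ f q) :
    swap p (f p) * swap q (f q) ∈ alternatingGroup α ∧
      (swap p (f p) * swap q (f q)) * f = f * (swap p (f p) * swap q (f q)) ∧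
      (swap p (f p) * swap q (f q)) p = f p ∧
      ∀ r, r ≠ p → r ≠ q → r ≠ f p → r ≠ f q → (swap p (f p) * swap q (f q)) r = r := by
  have hff : ∀ w, f (f w) = w := fun w => by
    have := congrArg (fun h : Perm α => h w) hf
    simpa using this
  have h6 : q ≠ f p := by
    intro h; apply h4; rw [h, hff]
  refine ⟨?_, ?_, ?_, ?_⟩
  · rw [Equiv.Perm.mem_alternatingGroup, Perm.sign_mul, sign_swap h2.symm, sign_swap h3.symm]
    simp
  · have e1 : f * swap p (f p) = swap p (f p) * f := by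
      rw [mul_swap_eq_swap_mul, hff, swap_comm]
    have e2 : f * swap q (f q) = swap q (f q) * f := by
      rw [mul_swap_eq_swap_mul, hff, swap_comm]
    symm
    calc f * (swap p (f p) * swap q (f q))
        = (f * swap p (f p)) * swap q (f q) := by rw [mul_assoc]
      _ = swap p (f p) * (f * swap q (f q)) := by rw [e1, mul_assoc]
      _ = _ := by rw [e2, mul_assoc]
  · rw [Perm.mul_apply, swap_apply_of_ne_of_ne h1 h4, swap_apply_left]
  · intro r hr1 hr2 hr3 hr4
    rw [Perm.mul_apply, swap_apply_of_ne_of_ne hr2 hr4, swap_apply_of_ne_of_ne hr1 hr3]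

/-- A `3`-cycle not commuting with the involution `f`. -/
theorem exists_not_comm (f : Perm α) (hf : f * f = 1) (hu : ∀ y z, f y = y → f z = z → y = z)
    (hn : 4 ≤ Fintype.card α) : ∃ c ∈ alternatingGroup α, c * f ≠ f * c := by
  have hff : ∀ w, f (f w) = w := fun w => by
    have := congrArg (fun h : Perm α => h w) hf
    simpa using this
  obtain ⟨a, ha⟩ : ∃ a, f a ≠ a := by
    obtain ⟨a, -⟩ := exists_avoid ([] : List α) (by simp; omega)
    obtain ⟨b, hb⟩ := exists_avoid [a] (by simp; omega)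
    simp only [List.mem_cons, List.not_mem_nil, or_false] at hb
    by_cases h : f a = a
    · exact ⟨b, fun h2 => hb (hu _ _ h2 h)⟩
    · exact ⟨a, h⟩
  obtain ⟨b, hb⟩ := exists_avoid [a, f a] (by simp; omega)
  simp only [List.mem_cons, List.not_mem_nil, or_false, not_or] at hb
  refine ⟨cy a (f a) b, cy_mem_alt ha.symm (Ne.symm hb.1) (Ne.symm hb.2), ?_⟩
  intro h
  have h1 := congrArg (fun g : Perm α => g a) h
  simp only [Perm.mul_apply] at h1
  rw [cy_mid, cy_left ha.symm (Ne.symm hb.2), hff] at h1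
  exact hb.1 h1

theorem alt_le_of {A : Subgroup (Perm α)} (hA : A = alternatingGroup α ∨ A = ⊤) :
    alternatingGroup α ≤ A := by
  rcases hA with rfl | rfl
  · exact le_rfl
  · exact le_top

theorem exists_nonfixed (f : Perm α) (hu : ∀ y z, f y = y → f z = z → y = z) (S : Finset α)
    (h : 2 ≤ S.card) : ∃ q ∈ S, f q ≠ q := by
  obtain ⟨a, ha, b, hb, hab⟩ := Finset.one_lt_card.mp (by omega : 1 < S.card)
  by_cases h1 : f a = a
  · exact ⟨b, hb, fun h2 => hab (hu _ _ h1 h2)⟩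
  · exact ⟨a, ha, h1⟩

/-- A `2`-subgroup fixes a subset of size `m` if `C(n, m)` is odd. -/
theorem exists_invariant_subset (P : Subgroup (Perm α)) (hP : IsPGroup 2 P) (m : ℕ)
    (h : Odd ((Fintype.card α).choose m)) :
    ∃ O : Finset α, O.card = m ∧ ∀ g ∈ P, ∀ y, g y ∈ O ↔ y ∈ O := by
  have hc : Odd (Nat.card (Set.powersetCard α m)) := by
    rwa [Set.powersetCard.card, Nat.card_eq_fintype_card]
  obtain ⟨t, ht⟩ := exists_fixed_of_odd hP hc
  refine ⟨(t : Finset α), Set.powersetCard.card_eq t, ?_⟩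
  intro g hg y
  have h1 : ((⟨g, hg⟩ : P) • t : Set.powersetCard α m) = t := ht ⟨g, hg⟩
  have h2 : (⟨g, hg⟩ : P) • (t : Finset α) = (t : Finset α) :=
    (Set.powersetCard.coe_smul).symm.trans (congrArg Subtype.val h1)
  have h3 := Finset.smul_mem_smul_finset_iff (a := (⟨g, hg⟩ : P)) (b := y) (s := (t : Finset α))
  rw [h2] at h3
  exact h3

theorem no_mixed {A P : Subgroup (Perm α)} (hA : A = alternatingGroup α ∨ A = ⊤) (hS : Syl A P)
    (j b : ℕ) (hb2 : 2 ≤ b) (hba : b < 2 ^ j) (hn : Fintype.card α = 2 ^ j + b) :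
    ∃ H₁ H₂ : Subgroup (Perm α), P ≤ H₁ ∧ P ≤ H₂ ∧ H₁ ≤ A ∧ H₂ ≤ A ∧ H₁ ≠ A ∧ H₂ ≠ A ∧
      ∀ M : Subgroup (Perm α), H₁ ≤ M → H₂ ≤ M → M ≤ A → M = A := by
  have halt := alt_le_of hA
  obtain ⟨f, hf, hu, hcomm⟩ := exists_comm_invol P hS.pg
  have hff : ∀ w, f (f w) = w := fun w => by
    have := congrArg (fun h : Perm α => h w) hf
    simpa using this
  have hodd : Odd ((Fintype.card α).choose (2 ^ j)) := by
    rw [hn]; exact odd_choose_pow_add j b hba
  obtain ⟨O, hOc, hO⟩ := exists_invariant_subset P hS.pg _ hodd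
  have hOcc : (Oᶜ).card = b := by
    rw [Finset.card_compl, hOc, hn]; omega
  have hnot : ∀ {y : α}, y ∉ O ↔ y ∈ (Oᶜ : Finset α) := by
    intro y; simp
  have hmemO : ∀ (g : Perm α), g ∈ stabilizer (Perm α) (O : Set α) ↔ ∀ y, g y ∈ O ↔ y ∈ O := by
    intro g
    rw [mem_stab_iff]
    simp
  obtain ⟨p₀, hp₀⟩ : O.Nonempty := by
    rw [← Finset.card_pos]; omega
  obtain ⟨q₁, hq₁, q₂, hq₂, hq₁₂⟩ := Finset.one_lt_card.mp (by omega : 1 < (Oᶜ).card)
  refine ⟨stabilizer (Perm α) (O : Set α) ⊓ A, Subgroup.centralizer {f} ⊓ A, ?_, ?_, inf_le_right,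
    inf_le_right, ?_, ?_, ?_⟩
  · intro g hg
    exact ⟨(hmemO g).mpr (hO g hg), hS.le hg⟩
  · intro g hg
    exact ⟨Subgroup.mem_centralizer_singleton_iff.mpr (hcomm g hg), hS.le hg⟩
  · intro he
    have hc := cy_mem_alt (a := p₀) (b := q₁) (c := q₂)
      (by rintro rfl; exact (hnot.mpr hq₁) hp₀) (by rintro rfl; exact (hnot.mpr hq₂) hp₀) hq₁₂
    have h1 : cy p₀ q₁ q₂ ∈ stabilizer (Perm α) (O : Set α) ⊓ A := by
      rw [he]; exact halt hc
    have h2 := ((hmemO _).mp h1.1 p₀).mpr hp₀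
    rw [cy_left (by rintro rfl; exact (hnot.mpr hq₁) hp₀) hq₁₂] at h2
    exact (hnot.mpr hq₁) h2
  · intro he
    obtain ⟨c, hc, hc2⟩ := exists_not_comm f hf hu (by omega)
    have h1 : c ∈ Subgroup.centralizer {f} ⊓ A := by
      rw [he]; exact halt hc
    exact hc2 (Subgroup.mem_centralizer_singleton_iff.mp h1.1)
  · intro M h1 h2 hM
    obtain ⟨q, hq, hfq⟩ := exists_nonfixed f hu (Oᶜ) (by omega)
    have hcard : 2 ≤ (O.erase (f q)).card := by
      have := Finset.pred_card_le_card_erase (s := O) (a := f q)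
      omega
    obtain ⟨p, hp, hfp⟩ := exists_nonfixed f hu (O.erase (f q)) hcard
    obtain ⟨hpne, hpO⟩ := Finset.mem_erase.mp hp
    have hqO : q ∉ O := hnot.mpr hq
    have hpq : p ≠ q := by rintro rfl; exact hqO hpO
    obtain ⟨g1, g2, g3, -⟩ := swap_pair_props f hf hpq hfp hfq hpne
    refine stab_rel_coatom hA (O : Set α) ⟨p, hpO⟩ ?_ ?_ M hM h1 _ (h2 ⟨?_, halt g1⟩) ?_
    · refine ⟨q, ?_⟩
      simpa using hqO
    · rw [Set.ncard_coe_finset, hOc, Nat.card_eq_fintype_card, hn]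
      omega
    · exact Subgroup.mem_centralizer_singleton_iff.mpr g2
    · intro hst
      have := ((hmemO _).mp hst p).mpr hpO
      rw [g3] at this
      exact hqO this

theorem exists_half_block {A P : Subgroup (Perm α)} (hA : alternatingGroup α ≤ A) (hS : Syl A P)
    (k : ℕ) (hk : 1 ≤ k) (h3 : 3 ≤ Fintype.card α) (hn : Fintype.card α = 2 ^ k) :
    ∃ X : Finset α, 2 * X.card = Fintype.card α ∧
      ∀ g ∈ P, (∀ y, g y ∈ X ↔ y ∈ X) ∨ (∀ y, g y ∈ X ↔ y ∉ X) := by
  classical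
  obtain ⟨y₀, -⟩ := exists_avoid ([] : List α) (by simp; omega)
  -- transitivity
  have htr : ∀ z, ∃ g ∈ P, g y₀ = z := by
    obtain ⟨O, hyO, hOmem, hO⟩ := orbit_props P y₀
    have hodd := odd_choose_of_invariant hA hS h3 O hO
    rw [hn] at hodd
    have hOc : O.card = 2 ^ k := by
      by_contra hne
      have h0 : O.card ≠ 0 := (Finset.card_pos.mpr ⟨y₀, hyO⟩).ne'
      exact (Nat.not_even_iff_odd.mpr hodd) (even_iff_two_dvd.mpr (two_dvd_choose_pow k _ h0 hne))
    have hOu : O = Finset.univ := Finset.eq_univ_of_card O (by rw [hOc, hn])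
    intro z
    exact hOmem z (by rw [hOu]; exact Finset.mem_univ z)
  have hpt : IsPretransitive P α := by
    constructor
    intro a b
    obtain ⟨g₁, hg₁, h1⟩ := htr a
    obtain ⟨g₂, hg₂, h2⟩ := htr b
    refine ⟨⟨g₂ * g₁⁻¹, P.mul_mem hg₂ (P.inv_mem hg₁)⟩, ?_⟩
    change (g₂ * g₁⁻¹) a = b
    rw [Perm.mul_apply, ← h1]
    simp [h2]
  obtain ⟨e, he⟩ := IsPGroup.iff_card.mp hS.pg
  let Py : Subgroup P := stabilizer P y₀
  have hPyi : Py.index = 2 ^ k := by
    rw [index_stabilizer_of_transitive, Nat.card_eq_fintype_card, hn]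
  have hPyc : Py.index * Nat.card Py = 2 ^ e := by
    rw [Subgroup.index_mul_card, he]
  obtain ⟨d, hd, hdc⟩ := (Nat.dvd_prime_pow Nat.prime_two).mp (Dvd.intro_left _ hPyc)
  rw [hPyi, hdc, ← pow_add] at hPyc
  have hked : k + d = e := Nat.pow_right_injective (le_refl 2) hPyc
  obtain ⟨K, hKc, hKle⟩ := Sylow.exists_subgroup_card_pow_prime_le 2
    (n := d) (m := e - 1) (by rw [he]; exact pow_dvd_pow 2 (by omega)) Py hdc (by omega)
  -- the orbit of `K`
  let X : Finset α := Finset.univ.filter (fun z => ∃ g : K, ((g : P) : Perm α) y₀ = z)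
  have hmemX : ∀ z, z ∈ X ↔ ∃ g : K, ((g : P) : Perm α) y₀ = z := by
    intro z; simp [X]
  have hXorb : (X : Set α) = orbit K y₀ := by
    ext z
    rw [Finset.mem_coe, hmemX, MulAction.mem_orbit_iff]
    rfl
  have hstab : stabilizer K y₀ = Py.subgroupOf K := by
    ext g
    rfl
  have hstabc : Nat.card (stabilizer K y₀) = 2 ^ d := by
    rw [hstab, ← hdc]
    exact Nat.card_congr (Subgroup.subgroupOfEquivOfLe hKle).toEquiv
  have hXc : X.card * 2 ^ d = 2 ^ (e - 1) := by
    have h1 := Subgroup.index_mul_card (stabilizer K y₀)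
    rw [MulAction.index_stabilizer, ← hXorb, Set.ncard_coe_finset, hstabc, hKc] at h1
    exact h1
  have hXc' : X.card = 2 ^ (k - 1) := by
    have h1 : e - 1 = (k - 1) + d := by omega
    rw [h1, pow_add] at hXc
    exact Nat.eq_of_mul_eq_mul_right (by positivity) hXc
  have hX2 : 2 * X.card = Fintype.card α := by
    rw [hXc', hn, ← pow_succ']
    congr 1
    omega
  refine ⟨X, hX2, ?_⟩
  intro g hg
  by_cases hgK : (⟨g, hg⟩ : P) ∈ K
  · left
    intro y
    rw [hmemX, hmemX]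
    constructor
    · rintro ⟨h, hh⟩
      refine ⟨⟨(⟨g, hg⟩ : P), hgK⟩⁻¹ * h, ?_⟩
      change g⁻¹ (((h : P) : Perm α) y₀) = y
      rw [hh]; simp
    · rintro ⟨h, hh⟩
      refine ⟨⟨(⟨g, hg⟩ : P), hgK⟩ * h, ?_⟩
      change g (((h : P) : Perm α) y₀) = g y
      rw [hh]
  · right
    have hfwd : ∀ y, g y ∈ X → y ∉ X := by
      intro y hy hyX
      obtain ⟨k₂, hk₂⟩ := (hmemX _).mp hy
      obtain ⟨k₁, hk₁⟩ := (hmemX _).mp hyX
      apply hgK
      have hm : ((k₂ : P))⁻¹ * (⟨g, hg⟩ : P) * (k₁ : P) ∈ Py := by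
        change (((k₂ : P) : Perm α)⁻¹ * g * ((k₁ : P) : Perm α)) • y₀ = y₀
        rw [Perm.smul_def, Perm.mul_apply, Perm.mul_apply, hk₁, ← hk₂]
        simp
      have hm2 := hKle hm
      have e1 : (⟨g, hg⟩ : P) = (k₂ : P) * (((k₂ : P))⁻¹ * (⟨g, hg⟩ : P) * (k₁ : P)) * (k₁ : P)⁻¹ := by
        group
      rw [e1]
      exact K.mul_mem (K.mul_mem k₂.2 hm2) (K.inv_mem k₁.2)
    intro y
    refine ⟨hfwd y, fun hy => ?_⟩
    by_contra hgy
    have himg : X.image g = Xᶜ := by
      apply Finset.eq_of_subset_of_card_le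
      · intro z hz
        obtain ⟨w, hw, rfl⟩ := Finset.mem_image.mp hz
        rw [Finset.mem_compl]
        intro h2
        exact hfwd w h2 hw
      · rw [Finset.card_image_of_injective _ g.injective, Finset.card_compl]
        omega
    have h2 : g y ∈ X.image g := by
      rw [himg, Finset.mem_compl]
      exact hgy
    obtain ⟨w, hw, hwe⟩ := Finset.mem_image.mp h2
    rw [g.injective hwe] at hw
    exact hy hw

theorem exists_in_avoid (S : Finset α) (l : List α) (h : l.length < S.card) : ∃ e ∈ S, e ∉ l := by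
  obtain ⟨e, he, he2⟩ := Finset.exists_mem_notMem_of_card_lt_card
    (s := l.toFinset) (t := S) (lt_of_le_of_lt (List.toFinset_card_le l) h)
  exact ⟨e, he, by simpa using he2⟩

theorem prim_two_blocks (X : Finset α) (hX : 4 ≤ X.card) (hXc : 3 ≤ (Xᶜ).card)
    (M : Subgroup (Perm α))
    (h3 : ∀ a b c, a ≠ b → a ≠ c → b ≠ c → ((a ∈ X ∧ b ∈ X ∧ c ∈ X) ∨ (a ∉ X ∧ b ∉ X ∧ c ∉ X)) →
      cy a b c ∈ M)
    {g : Perm α} (hg : g ∈ M) {p r : α} (hp : p ∈ X) (hr : r ∈ X) (hgp : g p ∉ X) (hgr : g r = r)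
    [IsPretransitive M α] : IsPreprimitive M α := by
  apply IsPreprimitive.of_isTrivialBlock_base p
  intro B hpB hB
  by_cases hsub : B.Subsingleton
  · exact Or.inl hsub
  right
  obtain ⟨z, hzB, hzp⟩ : ∃ y ∈ B, y ≠ p := by
    by_contra hcon
    push Not at hcon
    apply hsub
    intro a ha b hb
    rw [hcon a ha, hcon b hb]
  have fact1 : ∀ z₁ ∈ B, z₁ ∈ X → z₁ ≠ p → ∀ w ∈ X, w ∈ B := by
    intro z₁ hz₁B hz₁X hz₁p w hw
    by_cases hwp : w = p
    · rw [hwp]; exact hpB
    by_cases hwz : w = z₁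
    · rw [hwz]; exact hz₁B
    obtain ⟨e, he, he2⟩ := exists_in_avoid X [p, z₁, w] (by simp; omega)
    simp only [List.mem_cons, List.not_mem_nil, or_false, not_or] at he2
    have hc := h3 z₁ w e (Ne.symm hwz) (Ne.symm he2.2.1) (Ne.symm he2.2.2) (Or.inl ⟨hz₁X, hw, he⟩)
    have hcp : cy z₁ w e p = p := cy_of_ne (Ne.symm hz₁p) (Ne.symm hwp) (Ne.symm he2.1)
    have := block_mem hB hc hpB (by rw [hcp]; exact hpB) hz₁B
    rwa [cy_left (Ne.symm hwz) (Ne.symm he2.2.2)] at this
  have fact2 : ∀ z₁ ∈ B, z₁ ∉ X → ∀ w, w ∉ X → w ∈ B := by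
    intro z₁ hz₁B hz₁X w hw
    by_cases hwz : w = z₁
    · rw [hwz]; exact hz₁B
    obtain ⟨e, he, he2⟩ := exists_in_avoid (Xᶜ) [z₁, w] (by simp; omega)
    simp only [List.mem_cons, List.not_mem_nil, or_false, not_or] at he2
    have heX : e ∉ X := by simpa using he
    have hc := h3 z₁ w e (Ne.symm hwz) (Ne.symm he2.1) (Ne.symm he2.2) (Or.inr ⟨hz₁X, hw, heX⟩)
    have hcp : cy z₁ w e p = p := cy_of_ne (by rintro rfl; exact hz₁X hp) (by rintro rfl; exact hw hp)
      (by rintro rfl; exact heX hp)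
    have := block_mem hB hc hpB (by rw [hcp]; exact hpB) hz₁B
    rwa [cy_left (Ne.symm hwz) (Ne.symm he2.2)] at this
  have fact3 : (∀ w, w ∉ X → w ∈ B) → ∀ w ∈ X, w ∈ B := by
    intro hall w hw
    by_cases hwp : w = p
    · rw [hwp]; exact hpB
    obtain ⟨e, he, he2⟩ := exists_in_avoid X [p, w] (by simp; omega)
    simp only [List.mem_cons, List.not_mem_nil, or_false, not_or] at he2
    obtain ⟨t, ht, -⟩ := exists_in_avoid (Xᶜ) [] (by simp only [List.length_nil]; omega)
    have htX : t ∉ X := by simpa using ht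
    have hc := h3 p w e (Ne.symm hwp) (Ne.symm he2.1) (Ne.symm he2.2) (Or.inl ⟨hp, hw, he⟩)
    have hct : cy p w e t = t := cy_of_ne (by rintro rfl; exact htX hp) (by rintro rfl; exact htX hw)
      (by rintro rfl; exact htX he)
    have := block_mem hB hc (hall t htX) (by rw [hct]; exact hall t htX) hpB
    rwa [cy_left (Ne.symm hwp) (Ne.symm he2.2)] at this
  have hall : ∀ w, w ∉ X → w ∈ B := by
    by_cases hzX : z ∈ X
    · have hXB := fact1 z hzB hzX hzp
      have hgpB : g p ∈ B := block_mem hB hg (hXB r hr) (by rw [hgr]; exact hXB r hr) hpB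
      exact fact2 _ hgpB hgp
    · exact fact2 z hzB hzX
  rw [Set.eq_univ_iff_forall]
  intro w
  by_cases hw : w ∈ X
  · exact fact3 hall w hw
  · exact hall w hw

/-- The stabilizer of the partition `{X, Xᶜ}`. -/
def pairStab (X : Finset α) : Subgroup (Perm α) where
  carrier := {g | (∀ y, g y ∈ X ↔ y ∈ X) ∨ (∀ y, g y ∈ X ↔ y ∉ X)}
  mul_mem' := by
    intro a b ha hb
    simp only [Set.mem_ofPred_eq, Perm.mul_apply] at ha hb ⊢
    rcases ha with ha | ha <;> rcases hb with hb | hb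
    · left; intro y; rw [ha, hb]
    · right; intro y; rw [ha, hb]
    · right; intro y; rw [ha, hb]
    · left; intro y; rw [ha, hb, not_not]
  one_mem' := Or.inl fun _ => Iff.rfl
  inv_mem' := by
    intro a ha
    simp only [Set.mem_ofPred_eq] at ha ⊢
    rcases ha with ha | ha
    · left
      intro y
      have := ha (a⁻¹ y)
      rw [show a (a⁻¹ y) = y by simp] at this
      exact this.symm
    · right
      intro y
      have := ha (a⁻¹ y)
      rw [show a (a⁻¹ y) = y by simp] at this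
      rw [this, not_not]

theorem exists_comm_mover (f : Perm α) (hf : f * f = 1) (hu : ∀ y z, f y = y → f z = z → y = z)
    (X : Finset α) (hX : 4 ≤ X.card) (hXc : 3 ≤ (Xᶜ).card) :
    ∃ g ∈ alternatingGroup α, g * f = f * g ∧ ∃ p r, p ∈ X ∧ r ∈ X ∧ g p ∉ X ∧ g r = r := by
  have hff : ∀ w, f (f w) = w := fun w => by
    have := congrArg (fun h : Perm α => h w) hf
    simpa using this
  by_cases hst : ∃ p ∈ X, f p ∉ X
  · obtain ⟨p, hp, hfp⟩ := hst
    have hfpne : f p ≠ p := by rintro h; rw [h] at hfp; exact hfp hp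
    have hcard : 2 ≤ ((Finset.univ : Finset α).erase p |>.erase (f p)).card := by
      have h1 := Finset.pred_card_le_card_erase (s := (Finset.univ : Finset α).erase p) (a := f p)
      have h2 := Finset.pred_card_le_card_erase (s := (Finset.univ : Finset α)) (a := p)
      have h3 : Fintype.card α = X.card + (Xᶜ).card := by
        rw [Finset.card_compl]
        have := X.card_le_univ
        omega
      rw [Finset.card_univ] at h2
      omega
    obtain ⟨q, hq, hfq⟩ := exists_nonfixed f hu _ hcard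
    have hq1 : q ≠ f p := (Finset.mem_erase.mp hq).1
    have hq2 : q ≠ p := (Finset.mem_erase.mp (Finset.mem_erase.mp hq).2).1
    have hpfq : p ≠ f q := by
      intro h; apply hq1; rw [h, hff]
    obtain ⟨g1, g2, g3, g4⟩ := double_pair_props f hf (Ne.symm hq2) hfpne hfq hpfq
    obtain ⟨r, hr, hr2⟩ := exists_in_avoid X [p, q, f q] (by simp; omega)
    simp only [List.mem_cons, List.not_mem_nil, or_false, not_or] at hr2
    refine ⟨_, g1, g2, p, r, hp, hr, by rw [g3]; exact hfp, ?_⟩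
    exact g4 r hr2.1 hr2.2.1 (by rintro rfl; exact hfp hr) hr2.2.2
  · push Not at hst
    have hst2 : ∀ q, q ∉ X → f q ∉ X := by
      intro q hq h
      apply hq
      have := hst _ h
      rwa [hff] at this
    obtain ⟨q, hq, hfq⟩ := exists_nonfixed f hu (Xᶜ) (by omega)
    obtain ⟨p, hp, hfp⟩ := exists_nonfixed f hu X (by omega)
    have hqX : q ∉ X := by simpa using hq
    have hpq : p ≠ q := by rintro rfl; exact hqX hp
    have hpfq : p ≠ f q := by rintro rfl; exact hst2 q hqX hp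
    obtain ⟨g1, g2, g3, g4⟩ := swap_pair_props f hf hpq hfp hfq hpfq
    obtain ⟨r, hr, hr2⟩ := exists_in_avoid X [p, f p] (by simp; omega)
    simp only [List.mem_cons, List.not_mem_nil, or_false, not_or] at hr2
    refine ⟨_, g1, g2, p, r, hp, hr, by rw [g3]; exact hqX, ?_⟩
    exact g4 r hr2.1 (by rintro rfl; exact hqX hr) hr2.2 (by rintro rfl; exact hst2 q hqX hr)

theorem no_even {A P : Subgroup (Perm α)} (hA : A = alternatingGroup α ∨ A = ⊤) (hS : Syl A P)
    (k : ℕ) (hk : 3 ≤ k) (hn : Fintype.card α = 2 ^ k) :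
    ∃ H₁ H₂ : Subgroup (Perm α), P ≤ H₁ ∧ P ≤ H₂ ∧ H₁ ≤ A ∧ H₂ ≤ A ∧ H₁ ≠ A ∧ H₂ ≠ A ∧
      ∀ M : Subgroup (Perm α), H₁ ≤ M → H₂ ≤ M → M ≤ A → M = A := by
  have halt := alt_le_of hA
  have h8 : 8 ≤ 2 ^ k := by
    calc 8 = 2 ^ 3 := by norm_num
      _ ≤ 2 ^ k := Nat.pow_le_pow_right (by norm_num) hk
  obtain ⟨f, hf, hu, hcomm⟩ := exists_comm_invol P hS.pg
  obtain ⟨X, hX2, hXP⟩ := exists_half_block halt hS k (by omega) (by omega) hn
  have hXcard : 4 ≤ X.card := by omega
  have hXcc : (Xᶜ).card = X.card := by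
    rw [Finset.card_compl]; omega
  have hXcc3 : 3 ≤ (Xᶜ).card := by omega
  obtain ⟨p₀, hp₀, p₁, hp₁, hp₀₁⟩ := Finset.one_lt_card.mp (by omega : 1 < X.card)
  obtain ⟨q₁, hq₁, q₂, hq₂, hq₁₂⟩ := Finset.one_lt_card.mp (by omega : 1 < (Xᶜ).card)
  have hq₁X : q₁ ∉ X := by simpa using hq₁
  have hq₂X : q₂ ∉ X := by simpa using hq₂
  have hpqne : ∀ {p q : α}, p ∈ X → q ∉ X → p ≠ q := by
    rintro p q hp hq rfl; exact hq hp
  refine ⟨pairStab X ⊓ A, Subgroup.centralizer {f} ⊓ A, ?_, ?_, inf_le_right,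
    inf_le_right, ?_, ?_, ?_⟩
  · intro g hg
    exact ⟨hXP g hg, hS.le hg⟩
  · intro g hg
    exact ⟨Subgroup.mem_centralizer_singleton_iff.mpr (hcomm g hg), hS.le hg⟩
  · intro he
    have hc := cy_mem_alt (hpqne hp₀ hq₁X) (hpqne hp₀ hq₂X) hq₁₂
    have h1 : cy p₀ q₁ q₂ ∈ pairStab X ⊓ A := by
      rw [he]; exact halt hc
    rcases h1.1 with h2 | h2
    · have := (h2 p₀).mpr hp₀
      rw [cy_left (hpqne hp₀ hq₁X) hq₁₂] at this
      exact hq₁X this
    · have := h2 p₁
      rw [cy_of_ne (Ne.symm hp₀₁) (hpqne hp₁ hq₁X) (hpqne hp₁ hq₂X)] at this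
      exact this.mp hp₁ hp₁
  · intro he
    obtain ⟨c, hc, hc2⟩ := exists_not_comm f hf hu (by omega)
    have h1 : c ∈ Subgroup.centralizer {f} ⊓ A := by
      rw [he]; exact halt hc
    exact hc2 (Subgroup.mem_centralizer_singleton_iff.mp h1.1)
  · intro M h1 h2 hM
    obtain ⟨g, hgalt, hgc, p, r, hp, hr, hgp, hgr⟩ := exists_comm_mover f hf hu X hXcard hXcc3
    have hgM : g ∈ M := h2 ⟨Subgroup.mem_centralizer_singleton_iff.mpr hgc, halt hgalt⟩
    have h3 : ∀ a b c, a ≠ b → a ≠ c → b ≠ c → ((a ∈ X ∧ b ∈ X ∧ c ∈ X) ∨ (a ∉ X ∧ b ∉ X ∧ c ∉ X)) →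
        cy a b c ∈ M := by
      intro a b c hab hac hbc hcase
      apply h1
      refine ⟨Or.inl ?_, halt (cy_mem_alt hab hac hbc)⟩
      intro y
      apply cy_pred hab hac hbc (fun z => z ∈ X)
      · rcases hcase with ⟨h1, h2, h3⟩ | ⟨h1, h2, h3⟩ <;> simp [h1, h2]
      · rcases hcase with ⟨h1, h2, h3⟩ | ⟨h1, h2, h3⟩ <;> simp [h2, h3]
    have hpt : IsPretransitive M α := by
      have hPM : P ≤ M := fun x hx => h1 ⟨hXP x hx, hS.le hx⟩
      obtain ⟨y₀, -⟩ := exists_avoid ([] : List α) (by simp; omega)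
      obtain ⟨O, hyO, hOmem, hO⟩ := orbit_props P y₀
      have hodd := odd_choose_of_invariant halt hS (by omega) O hO
      rw [hn] at hodd
      have hOc : O.card = 2 ^ k := by
        by_contra hne
        have h0 : O.card ≠ 0 := (Finset.card_pos.mpr ⟨y₀, hyO⟩).ne'
        exact (Nat.not_even_iff_odd.mpr hodd) (even_iff_two_dvd.mpr (two_dvd_choose_pow k _ h0 hne))
      have hOu : O = Finset.univ := Finset.eq_univ_of_card O (by rw [hOc, hn])
      have htr : ∀ z, ∃ g ∈ P, g y₀ = z := by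
        intro z
        exact hOmem z (by rw [hOu]; exact Finset.mem_univ z)
      constructor
      intro a b
      obtain ⟨g₁, hg₁, h1⟩ := htr a
      obtain ⟨g₂, hg₂, h2⟩ := htr b
      refine ⟨⟨g₂ * g₁⁻¹, M.mul_mem (hPM hg₂) (M.inv_mem (hPM hg₁))⟩, ?_⟩
      change (g₂ * g₁⁻¹) a = b
      rw [Perm.mul_apply, ← h1]
      simp [h2]
    have hprim := prim_two_blocks X hXcard hXcc3 M h3 hgM hp hr hgp hgr
    rcases hA with rfl | rfl
    · apply le_antisymm hM
      obtain ⟨e, he, he2⟩ := exists_in_avoid X [p₀, p₁] (by simp; omega)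
      simp only [List.mem_cons, List.not_mem_nil, or_false, not_or] at he2
      exact alternatingGroup_le_of_isPreprimitive_of_isThreeCycle_mem hprim
        (cy_isThreeCycle hp₀₁ (Ne.symm he2.1) (Ne.symm he2.2))
        (h3 p₀ p₁ e hp₀₁ (Ne.symm he2.1) (Ne.symm he2.2) (Or.inl ⟨hp₀, hp₁, he⟩))
    · have hsw : swap p₀ p₁ ∈ M := by
        apply h1
        refine ⟨Or.inl ?_, trivial⟩
        intro y
        by_cases hy0 : y = p₀
        · subst hy0; simp [hp₀, hp₁]
        by_cases hy1 : y = p₁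
        · subst hy1; simp [hp₀, hp₁]
        rw [swap_apply_of_ne_of_ne hy0 hy1]
      exact subgroup_eq_top_of_isPreprimitive_of_isSwap_mem hprim _ ⟨p₀, p₁, hp₀₁, rfl⟩ hsw

end Cfsg.Agent.Lib.PermSylow.TwoMax
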